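import Cfsg.Agent.Lib.TwoFusion.U34
import Mathlib

/-!
# The centralizer of the involution `U(0, 1)` in `SU₃(4)`
-/

set_option autoImplicit false

open scoped commutatorElement Matrix

namespace Cfsg.Agent.Lib.H1903

open Cfsg.Agent.Lib.TwoFusion.U34 Cfsg

variable {F : Type*} [Field F] [Fintype F] [hf : Fact (Fintype.card F = 16)]

/-- The involution in the model. -/
noncomputable def t0 : H F := ⟨(0, 1), by
  have h2 := two0 (F := F)
  simp only [one_pow, ne_eq, OfNat.ofNat_ne_zero, not_false_eq_true, zero_pow]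
  linear_combination h2⟩

/-- The involution. -/
noncomputable def tt : Cfsg.SU 3 F 4 := ι (t0 (F := F))

/-- The matrix of an element of `SU`. -/
abbrev mat (M : Cfsg.SU 3 F 4) : Matrix (Fin 3) (Fin 3) F := (M.1 : Matrix (Fin 3) (Fin 3) F)

lemma mat_mul (M N : Cfsg.SU 3 F 4) : mat (M * N) = mat M * mat N := rfl

lemma mat_one : mat (1 : Cfsg.SU 3 F 4) = 1 := rfl

lemma mat_ext {M N : Cfsg.SU 3 F 4} (h : mat M = mat N) : M = N :=
  Subtype.ext (Subtype.ext h)

lemma mat_tt : mat (tt (F := F)) = !![0, 1, 0; 1, 0, 0; 0, 0, 1] := by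
  have h2 := two0 (F := F)
  have h3 : (1 : F) + 1 = 0 := by linear_combination h2
  change U (0 : F) 1 = _
  ext i j
  fin_cases i <;> fin_cases j <;> simp [U, h3]

lemma herm_col (M : Cfsg.SU 3 F 4) (i j : Fin 3) :
    ∑ k, mat M k i * (mat M k j) ^ 4 =
      ∑ k, (Pi.single i 1 : Fin 3 → F) k * ((Pi.single j 1 : Fin 3 → F) k) ^ 4 := by
  have h := M.2 (Pi.single i 1) (Pi.single j 1)
  have h' : Cfsg.hermForm 3 F 4 (mat M *ᵥ Pi.single i 1) (mat M *ᵥ Pi.single j 1) =
      Cfsg.hermForm 3 F 4 (Pi.single i 1) (Pi.single j 1) := h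
  simpa [Cfsg.hermForm, Matrix.mulVec_single_one] using h'

/-- The entries of an element of the centralizer. -/
structure Shape (M : Cfsg.SU 3 F 4) : Prop where
  e11 : mat M 1 1 = mat M 0 0
  e10 : mat M 1 0 = mat M 0 1
  e12 : mat M 1 2 = mat M 0 2
  e21 : mat M 2 1 = mat M 2 0

lemma shape_of_mem {M : Cfsg.SU 3 F 4} (hM : M ∈ Subgroup.centralizer ({tt (F := F)} : Set (Cfsg.SU 3 F 4))) :
    Shape M := by
  rw [Subgroup.mem_centralizer_singleton_iff] at hM
  have h : mat M * mat (tt (F := F)) = mat (tt (F := F)) * mat M := by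
    rw [← mat_mul, ← mat_mul, hM]
  rw [mat_tt] at h
  have h00 := congrFun (congrFun h 0) 0
  have h01 := congrFun (congrFun h 0) 1
  have h02 := congrFun (congrFun h 0) 2
  have h20 := congrFun (congrFun h 2) 0
  simp [Matrix.mul_apply, Fin.sum_univ_three] at h00 h01 h02 h20
  exact ⟨h01.symm, h00.symm, h02.symm, h20⟩

lemma eqs_of_shape {M : Cfsg.SU 3 F 4} (hS : Shape M) :
    (mat M 0 0 + mat M 0 1) ^ 5 = 1 ∧ (mat M 0 0 + mat M 0 1) ^ 2 * mat M 2 2 = 1 ∧
    (mat M 0 0 + mat M 0 1) * (mat M 0 2) ^ 4 + mat M 2 0 * (mat M 2 2) ^ 4 = 0 ∧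
    mat M 0 0 * (mat M 0 1) ^ 4 + mat M 0 1 * (mat M 0 0) ^ 4 + mat M 2 0 * (mat M 2 0) ^ 4 = 0 := by
  have h2 := two0 (F := F)
  have c00 := herm_col M 0 0
  have c01 := herm_col M 0 1
  have c02 := herm_col M 0 2
  simp only [Fin.sum_univ_three] at c00 c01 c02
  simp [hS.e11, hS.e10, hS.e12, hS.e21] at c00 c01 c02
  have hd := M.1.2
  rw [Matrix.det_fin_three] at hd
  change mat M 0 0 * mat M 1 1 * mat M 2 2 - mat M 0 0 * mat M 1 2 * mat M 2 1 -
      mat M 0 1 * mat M 1 0 * mat M 2 2 + mat M 0 1 * mat M 1 2 * mat M 2 0 +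
      mat M 0 2 * mat M 1 0 * mat M 2 1 - mat M 0 2 * mat M 1 1 * mat M 2 0 = 1 at hd
  rw [hS.e11, hS.e10, hS.e12, hS.e21] at hd
  generalize mat M 0 0 = a at *
  generalize mat M 0 1 = b at *
  generalize mat M 0 2 = c at *
  generalize mat M 2 0 = d at *
  generalize mat M 2 2 = e at *
  refine ⟨?_, ?_, ?_, ?_⟩
  · have e1 : (a + b) ^ 5 = (a + b) * (a ^ 4 + b ^ 4) := by rw [← ad4]; ring
    rw [e1]
    linear_combination c00 + c01 - d * d ^ 4 * h2
  · linear_combination hd + (a * b * e + b ^ 2 * e + a * c * d - b * c * d) * h2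
  · linear_combination c02
  · linear_combination c01

/-- The centralizer. -/
abbrev Cn (F : Type*) [Field F] [Fintype F] [hf : Fact (Fintype.card F = 16)] : Subgroup (Cfsg.SU 3 F 4) :=
  Subgroup.centralizer ({tt (F := F)} : Set (Cfsg.SU 3 F 4))

/-- The eigenvalue homomorphism. -/
noncomputable def uHom : Cn F →* F where
  toFun M := mat M.1 0 0 + mat M.1 0 1
  map_one' := by
    change mat (1 : Cfsg.SU 3 F 4) 0 0 + mat (1 : Cfsg.SU 3 F 4) 0 1 = 1
    rw [mat_one]; simp
  map_mul' M N := by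
    have h2 := two0 (F := F)
    have hN := shape_of_mem N.2
    change (mat M.1 * mat N.1) 0 0 + (mat M.1 * mat N.1) 0 1 = _
    simp only [Matrix.mul_apply, Fin.sum_univ_three]
    rw [hN.e10, hN.e11, hN.e21]
    linear_combination (mat M.1 0 2 * mat N.1 2 0) * h2

lemma uHom_apply (M : Cn F) : uHom M = mat M.1 0 0 + mat M.1 0 1 := rfl

lemma uHom_pow5 (M : Cn F) : uHom M ^ 5 = 1 := (eqs_of_shape (shape_of_mem M.2)).1

lemma exists_of_u_eq_one (M : Cn F) (hu : uHom M = 1) : ∃ h : H F, ι h = M.1 := by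
  have h2 := two0 (F := F)
  have hS := shape_of_mem M.2
  obtain ⟨-, e2, e3, e4⟩ := eqs_of_shape hS
  rw [uHom_apply] at hu
  rw [hu] at e2 e3
  have hB := hS.e10
  have hA := hS.e11
  have hC := hS.e12
  have hD := hS.e21
  generalize hma : mat M.1 0 0 = a at *
  generalize hmb : mat M.1 0 1 = b at *
  generalize hmc : mat M.1 0 2 = c at *
  generalize hmd : mat M.1 2 0 = d at *
  generalize hme : mat M.1 2 2 = e at *
  have he : e = 1 := by linear_combination e2
  subst he
  have haa : a = 1 + b := by linear_combination hu - b * h2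
  have hdd : d = c ^ 4 := by linear_combination e3 - c ^ 4 * h2
  have h16 : (c ^ 4) ^ 4 = c := by rw [← pow_mul]; exact pw c
  have ha4 : a ^ 4 = 1 + b ^ 4 := by rw [haa, ad4, one_pow]
  have hcons : b + b ^ 4 = c ^ 5 := by
    rw [ha4, hdd, h16] at e4
    rw [haa] at e4
    linear_combination e4 - (b ^ 5 + c ^ 5) * h2
  refine ⟨⟨(c, b), hcons⟩, mat_ext ?_⟩
  change U c b = mat M.1
  ext i j
  fin_cases i <;> fin_cases j <;> simp [U, hma, hmb, hmc, hmd, hme, hA, hB, hC, hD]
  · exact haa.symm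
  · exact haa.symm
  · exact hdd.symm
  · exact hdd.symm

lemma t0_central (h : H F) : t0 (F := F) * h = h * t0 := by
  have : t0 (F := F) ∈ Subgroup.center (H F) := (mem_center_H _).mpr rfl
  exact ((Subgroup.mem_center_iff.mp this) h).symm

/-- The embedding of the model in the centralizer. -/
noncomputable def jHom : H F →* Cn F :=
  MonoidHom.codRestrict ι (Cn F) (fun h => by
    rw [Subgroup.mem_centralizer_singleton_iff]
    change ι h * ι t0 = ι t0 * ι h
    rw [← map_mul, ← map_mul, t0_central])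

lemma jHom_coe (h : H F) : ((jHom h : Cn F) : Cfsg.SU 3 F 4) = ι h := rfl

lemma jHom_injective : Function.Injective (jHom (F := F)) := by
  intro x y hxy
  apply ι_injective
  exact congrArg Subtype.val hxy

lemma uHom_jHom (h : H F) : uHom (jHom h) = 1 := by
  have h2 := two0 (F := F)
  rw [uHom_apply]
  change U h.1.1 h.1.2 0 0 + U h.1.1 h.1.2 0 1 = 1
  simp [U]
  linear_combination h.1.2 * h2

/-- The homomorphism with values in units. -/
noncomputable def uU : Cn F →* Fˣ := (uHom (F := F)).toHomUnits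

lemma uU_coe (M : Cn F) : ((uU M : Fˣ) : F) = uHom M := rfl

lemma ker_uU : (uU (F := F)).ker = (jHom (F := F)).range := by
  ext M
  rw [MonoidHom.mem_ker, MonoidHom.mem_range]
  constructor
  · intro hM
    have h1 : uHom M = 1 := by rw [← uU_coe, hM]; rfl
    obtain ⟨h, hh⟩ := exists_of_u_eq_one M h1
    exact ⟨h, Subtype.ext hh⟩
  · rintro ⟨h, rfl⟩
    apply Units.ext
    rw [uU_coe, uHom_jHom]
    rfl

section mu

variable (μ : Fˣ) (hμ : orderOf μ = 5)

include hμ

lemma mu5 : (μ : F) ^ 5 = 1 := by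
  have : μ ^ 5 = 1 := by rw [← hμ, pow_orderOf_eq_one]
  have := congrArg Units.val this
  simpa using this

lemma mu15 : (μ : F) ^ 15 = 1 := by
  have : (μ : F) ^ 15 = ((μ : F) ^ 5) ^ 3 := by ring
  rw [this, mu5 μ hμ, one_pow]

/-- The torus element. -/
noncomputable def xS : Cfsg.SU 3 F 4 :=
  ⟨⟨!![(μ : F), 0, 0; 0, (μ : F), 0; 0, 0, (μ : F) ^ 3], by
    rw [Matrix.det_fin_three]
    simp
    have := mu5 μ hμ
    linear_combination this⟩, by
    intro u v
    have h5 := mu5 μ hμ
    have h15 := mu15 μ hμ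
    change Cfsg.hermForm 3 F 4 (!![(μ : F), 0, 0; 0, (μ : F), 0; 0, 0, (μ : F) ^ 3] *ᵥ u)
      (!![(μ : F), 0, 0; 0, (μ : F), 0; 0, 0, (μ : F) ^ 3] *ᵥ v) = Cfsg.hermForm 3 F 4 u v
    simp only [Cfsg.hermForm, Fin.sum_univ_three, Matrix.mulVec, dotProduct, Matrix.of_apply,
      Matrix.cons_val', Matrix.cons_val_zero, Matrix.cons_val_one, Matrix.cons_val_two,
      Matrix.empty_val', Matrix.cons_val_fin_one, Matrix.head_cons, Matrix.tail_cons]
    simp
    linear_combination (u 0 * v 0 ^ 4 + u 1 * v 1 ^ 4) * h5 + (u 2 * v 2 ^ 4) * h15⟩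

lemma mat_xS : mat (xS μ hμ) = !![(μ : F), 0, 0; 0, (μ : F), 0; 0, 0, (μ : F) ^ 3] := rfl

lemma xS_mem : xS μ hμ ∈ Cn F := by
  rw [Subgroup.mem_centralizer_singleton_iff]
  apply mat_ext
  rw [mat_mul, mat_mul, mat_tt, mat_xS]
  ext i j
  fin_cases i <;> fin_cases j <;> simp [Matrix.mul_apply, Fin.sum_univ_three]

/-- The torus element in the centralizer. -/
noncomputable def xC : Cn F := ⟨xS μ hμ, xS_mem μ hμ⟩

lemma uHom_xC : uHom (xC μ hμ) = μ := by
  rw [uHom_apply]
  change mat (xS μ hμ) 0 0 + mat (xS μ hμ) 0 1 = μ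
  rw [mat_xS]
  simp

/-- The action of the torus on the model. -/
noncomputable def sh (h : H F) : H F := ⟨((μ : F) ^ 3 * h.1.1, h.1.2), by
  have h15 := mu15 μ hμ
  have := h.2
  simp only at this ⊢
  rw [this]
  linear_combination (-(h.1.1 ^ 5)) * h15⟩

lemma sh_fst (h : H F) : (sh μ hμ h).1.1 = (μ : F) ^ 3 * h.1.1 := rfl

lemma xC_mul (h : H F) : xC μ hμ * jHom h = jHom (sh μ hμ h) * xC μ hμ := by
  apply Subtype.ext
  apply mat_ext
  change mat (xS μ hμ) * U h.1.1 h.1.2 = U ((μ : F) ^ 3 * h.1.1) h.1.2 * mat (xS μ hμ)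
  rw [mat_xS]
  have h5 := mu5 μ hμ
  have h15 := mu15 μ hμ
  ext i j
  fin_cases i <;> fin_cases j <;> simp [U, Matrix.mul_apply, Fin.sum_univ_three, mul_pow]
  all_goals first
    | ring1
    | linear_combination (-(μ : F) * h.1.1) * h5
    | linear_combination (-((μ : F) ^ 3 * h.1.1 ^ 4 * ((μ : F) ^ 5 + 1))) * h5

lemma range_uU : (uU (F := F)).range = Subgroup.zpowers μ := by
  apply le_antisymm
  · rintro _ ⟨M, rfl⟩
    have hp : IsPrimitiveRoot μ 5 := hμ ▸ IsPrimitiveRoot.orderOf μ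
    rw [hp.zpowers_eq, mem_rootsOfUnity]
    apply Units.ext
    rw [Units.val_pow_eq_pow_val, uU_coe, uHom_pow5]
    rfl
  · rw [Subgroup.zpowers_le]
    refine ⟨xC μ hμ, ?_⟩
    apply Units.ext
    rw [uU_coe, uHom_xC]

lemma card_Cn : Nat.card (Cn F) = 320 := by
  have h1 := Subgroup.card_mul_index (uU (F := F)).ker
  rw [Subgroup.index_ker, range_uU μ hμ, Nat.card_zpowers, hμ, ker_uU,
    Nat.card_congr (MonoidHom.ofInjective (jHom_injective (F := F))).toEquiv.symm, card_H] at h1
  exact h1.symm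

lemma commutator_Cn : commutator (Cn F) = (jHom (F := F)).range := by
  have h2 := two0 (F := F)
  apply le_antisymm
  · rw [← ker_uU, commutator_def, Subgroup.commutator_le]
    intro g _ h _
    rw [MonoidHom.mem_ker, map_commutatorElement, commutatorElement_eq_one_iff_commute]
    exact Commute.all _ _
  · rintro _ ⟨h, rfl⟩
    set ρ : F := (μ : F) ^ 3 with hρ
    have h5 := mu5 μ hμ
    have hρ1 : ρ + 1 ≠ 0 := by
      intro h0
      have h3 : (μ : F) ^ 3 = 1 := by rw [← hρ]; linear_combination h0 - h2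
      have h1 : (μ : F) = 1 := by
        have e : (μ : F) = ((μ : F) ^ 3) ^ 2 * ((μ : F) ^ 5)⁻¹ := by
          have hne : (μ : F) ^ 5 ≠ 0 := by rw [h5]; exact one_ne_zero
          field_simp
        rw [e, h3, h5]; simp
      have h1' : μ = 1 := Units.ext h1
      rw [h1', orderOf_one] at hμ
      omega
    let a : F := h.1.1 / (ρ + 1)
    have ha : (ρ + 1) * a = h.1.1 := by
      simp only [a]; field_simp
    let s : H F := ⟨(a, sec a), sec_spec a⟩
    let w : H F := sh μ hμ s * s⁻¹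
    have hw : w.1.1 = h.1.1 := by
      change ρ * a + a = h.1.1
      linear_combination ha
    let z : H F := h * w⁻¹
    have hz : z.1.1 = 0 := by
      change h.1.1 + w.1.1 = 0
      rw [hw]
      linear_combination h.1.1 * h2
    have hzc : z ∈ Subgroup.center (H F) := (mem_center_H z).mpr hz
    obtain ⟨x', y', hxy⟩ := (good_H (F := F)).center_comm z hzc
    have hh : h = z * w := by simp [z]
    have hjz : jHom z ∈ commutator (Cn F) := by
      rw [hxy, map_commutatorElement]
      exact Subgroup.commutator_mem_commutator (Subgroup.mem_top _) (Subgroup.mem_top _)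
    have hjw : jHom w ∈ commutator (Cn F) := by
      have e : jHom w = ⁅xC μ hμ, jHom s⁆ := by
        rw [commutatorElement_def, xC_mul, mul_inv_cancel_right]
        simp only [w, map_mul, map_inv]
      rw [e]
      exact Subgroup.commutator_mem_commutator (Subgroup.mem_top _) (Subgroup.mem_top _)
    rw [hh, map_mul]
    exact Subgroup.mul_mem _ hjz hjw

end mu

lemma exists_mu : ∃ μ : Fˣ, orderOf μ = 5 := by
  haveI : Fact (Nat.Prime 5) := ⟨Nat.prime_five⟩
  have hc : Nat.card Fˣ = 15 := by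
    classical
    rw [Nat.card_eq_fintype_card, Fintype.card_units, hf.out]
  exact exists_prime_orderOf_dvd_card' (G := Fˣ) 5 (by rw [hc]; norm_num)

/-- The centralizer satisfies the hypotheses. -/
theorem hyp_Cn : Nat.card (Cn F) = 320 ∧ Nat.card (commutator (Cn F)) = 64 ∧
    IsKleinFour (Subgroup.center (commutator (Cn F))) := by
  obtain ⟨μ, hμ⟩ := exists_mu (F := F)
  have e : (H F) ≃* commutator (Cn F) :=
    (MonoidHom.ofInjective (jHom_injective (F := F))).trans
      (MulEquiv.subgroupCongr (commutator_Cn μ hμ).symm)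
  refine ⟨card_Cn μ hμ, ?_, ?_⟩
  · rw [← Nat.card_congr e.toEquiv, card_H]
  · exact ((good_H (F := F)).of_equiv e.symm).props.2.1

lemma t0_ne_one : t0 (F := F) ≠ 1 := by
  intro h
  have := congrArg (fun x : H F => x.1.2) h
  change (1 : F) = 0 at this
  exact one_ne_zero this

lemma t0_sq : t0 (F := F) * t0 = 1 := by
  have h2 := two0 (F := F)
  apply H_ext
  · change (0 : F) + 0 = 0
    simp
  · change (1 : F) + 1 + 0 * 0 ^ 4 = 0
    linear_combination h2

/-- `PSU₃(4)` is `SU₃(4)`. -/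
noncomputable def psuEquiv : Cfsg.SU 3 F 4 ≃* Cfsg.PSU 3 F 4 :=
  MulEquiv.ofBijective (QuotientGroup.mk' (Subgroup.center (Cfsg.SU 3 F 4))) ⟨by
    intro x y hxy
    have h := (QuotientGroup.eq_iff_div_mem (N := Subgroup.center (Cfsg.SU 3 F 4))).mp hxy
    rw [center_SU_eq_bot, Subgroup.mem_bot, div_eq_one] at h
    exact h, QuotientGroup.mk'_surjective _⟩

lemma orderOf_tt : orderOf (tt (F := F)) = 2 := by
  apply orderOf_eq_prime
  · rw [pow_two]
    change ι t0 * ι t0 = 1
    rw [← map_mul, t0_sq, map_one]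
  · intro h
    apply t0_ne_one (F := F)
    apply ι_injective
    rw [map_one]
    exact h

/-- Centralizers under an isomorphism. -/
noncomputable def centralizerEquiv {A B : Type*} [Group A] [Group B] (e : A ≃* B) (t : A) :
    Subgroup.centralizer ({t} : Set A) ≃* Subgroup.centralizer ({e t} : Set B) :=
  (e.subgroupMap _).trans (MulEquiv.subgroupCongr (by
    ext x
    rw [Subgroup.mem_centralizer_singleton_iff]
    constructor
    · rintro ⟨c, hc, rfl⟩
      have hc' := Subgroup.mem_centralizer_singleton_iff.mp hc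
      change e c * e t = e t * e c
      rw [← map_mul, ← map_mul, hc']
    · intro hx
      refine ⟨e.symm x, ?_, by simp⟩
      rw [SetLike.mem_coe, Subgroup.mem_centralizer_singleton_iff]
      apply e.injective
      rw [map_mul, map_mul, e.apply_symm_apply, hx]))

end Cfsg.Agent.Lib.H1903
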