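import Cfsg.Agent.Lib.H1903.Rel
import Mathlib

/-!
# The structure of a group of order 320 with `|G'| = 64`, `Z(G') ≅ V₄`

Such a group is generated by a pair `a, y` satisfying `Rel`.
-/

set_option autoImplicit false

open scoped commutatorElement

namespace Cfsg.Agent.Lib.H1903

lemma ncard_fix_modEq {X : Type*} [Finite X] (σ : X → X) (h : ∀ x, σ (σ (σ (σ (σ x)))) = x)
    (S : Set X) (hS : ∀ x ∈ S, σ x ∈ S) : S.ncard ≡ {x ∈ S | σ x = x}.ncard [MOD 5] := by
  classical
  haveI := Fintype.ofFinite X
  haveI : Fact (Nat.Prime 5) := ⟨Nat.prime_five⟩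
  let f : Function.End S := fun x => ⟨σ x, hS x x.2⟩
  have hf : f ^ 5 ^ 1 = 1 := by
    funext x
    exact Subtype.ext (h x)
  have hm := Equiv.Perm.card_fixedPoints_modEq hf
  have e1 : S.ncard = Fintype.card S := by
    rw [← Nat.card_coe_set_eq, Nat.card_eq_fintype_card]
  have e2 : {x ∈ S | σ x = x}.ncard = Fintype.card (Function.fixedPoints f) := by
    rw [← Nat.card_coe_set_eq, ← Nat.card_eq_fintype_card]
    apply Nat.card_congr
    exact
      { toFun := fun x => ⟨⟨x.1, x.2.1⟩, Subtype.ext x.2.2⟩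
        invFun := fun x => ⟨x.1.1, x.1.2, congrArg Subtype.val x.2⟩
        left_inv := fun _ => rfl
        right_inv := fun _ => rfl }
  rw [e1, e2]
  exact hm

section K

variable {K : Type*} [Group K] [Finite K]

/-- A nontrivial subgroup invariant under a fixed-point-free map of order 5 of a group of order 16 is
everything. -/
lemma fpf_sub (hK : Nat.card K = 16) (σ : K → K) (h5 : ∀ x, σ (σ (σ (σ (σ x)))) = x)
    (hfix : ∀ x, σ x = x → x = 1) (h1 : σ 1 = 1) (R : Subgroup K) (hR : ∀ x ∈ R, σ x ∈ R)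
    (hne : R ≠ ⊥) : R = ⊤ := by
  have hm := ncard_fix_modEq σ h5 (R : Set K) hR
  have e : {x ∈ (R : Set K) | σ x = x} = {1} := by
    ext x
    constructor
    · rintro ⟨_, hx⟩
      exact hfix x hx
    · rintro rfl
      exact ⟨R.one_mem, h1⟩
  rw [e, Set.ncard_singleton, show (R : Set K).ncard = Nat.card R from Nat.card_coe_set_eq _] at hm
  have hd : Nat.card R ∣ 16 := hK ▸ Subgroup.card_subgroup_dvd_card R
  have hle : Nat.card R ≤ 16 := Nat.le_of_dvd (by norm_num) hd
  have hb : Nat.card R ≠ 1 := fun h => hne (Subgroup.eq_bot_of_card_eq R h)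
  have hcases : Nat.card R = 16 := by
    have hm' : Nat.card R % 5 = 1 := hm
    interval_cases hc : Nat.card R <;> first | rfl | omega | (exfalso; revert hd; decide)
  apply Subgroup.eq_top_of_card_eq
  rw [hcases, hK]

lemma fpf16 (hK : Nat.card K = 16) (σ : K →* K) (h5 : ∀ x, σ (σ (σ (σ (σ x)))) = x)
    (hfix : ∀ x, σ x = x → x = 1) : (∀ x y : K, x * y = y * x) ∧ ∀ x : K, x * x = 1 := by
  have hsurj : Function.Surjective σ := fun x => ⟨σ (σ (σ (σ x))), h5 x⟩
  have hp : IsPGroup 2 K := IsPGroup.of_card (n := 4) (by rw [hK]; norm_num)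
  haveI : Nontrivial K := Finite.one_lt_card_iff_nontrivial.mp (by rw [hK]; norm_num)
  have hcen : Subgroup.center K = ⊤ := by
    apply fpf_sub hK σ h5 hfix (map_one σ)
    · intro z hz
      rw [Subgroup.mem_center_iff] at hz ⊢
      intro g
      obtain ⟨g', rfl⟩ := hsurj g
      rw [← map_mul, ← map_mul, hz]
    · haveI := hp.center_nontrivial
      exact (Subgroup.nontrivial_iff_ne_bot _).mp this
  have hc : ∀ x y : K, x * y = y * x := by
    intro x y
    have : y ∈ Subgroup.center K := by rw [hcen]; trivial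
    exact (Subgroup.mem_center_iff.mp this) x
  refine ⟨hc, ?_⟩
  let S : Subgroup K :=
    { carrier := {x | x * x = 1}
      mul_mem' := by
        intro a b ha hb
        change a * b * (a * b) = 1
        have ha' : a * a = 1 := ha
        have hb' : b * b = 1 := hb
        calc a * b * (a * b) = a * (b * a) * b := by group
          _ = a * (a * b) * b := by rw [hc b a]
          _ = (a * a) * (b * b) := by group
          _ = 1 := by rw [ha', hb', one_mul]
      one_mem' := by simp
      inv_mem' := by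
        intro a ha
        change a⁻¹ * a⁻¹ = 1
        have ha' : a * a = 1 := ha
        rw [← mul_inv_rev, ha', inv_one] }
  have hS : S = ⊤ := by
    apply fpf_sub hK σ h5 hfix (map_one σ)
    · intro x hx
      change σ x * σ x = 1
      have hx' : x * x = 1 := hx
      rw [← map_mul, hx', map_one]
    · intro hbot
      obtain ⟨x, hx⟩ := exists_prime_orderOf_dvd_card' (G := K) 2 (by rw [hK]; norm_num)
      have hxS : x ∈ S := by
        change x * x = 1
        rw [← pow_two, ← hx, pow_orderOf_eq_one]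
      rw [hbot, Subgroup.mem_bot] at hxS
      rw [hxS, orderOf_one] at hx
      omega
  intro x
  have : x ∈ S := by rw [hS]; trivial
  exact this

end K

lemma comm_central_mul {G : Type*} [Group G] (h1 h2 z1 z2 : G) (hz1 : ∀ g : G, z1 * g = g * z1)
    (hz2 : ∀ g : G, z2 * g = g * z2) :
    (h1 * z1) * (h2 * z2) * (h1 * z1)⁻¹ * (h2 * z2)⁻¹ = h1 * h2 * h1⁻¹ * h2⁻¹ := by
  have e1 : z1⁻¹ * h1⁻¹ = h1⁻¹ * z1⁻¹ := by
    rw [← mul_inv_rev, ← mul_inv_rev, hz1 h1]
  calc (h1 * z1) * (h2 * z2) * (h1 * z1)⁻¹ * (h2 * z2)⁻¹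
      = h1 * (z1 * h2) * z2 * z1⁻¹ * h1⁻¹ * z2⁻¹ * h2⁻¹ := by group
    _ = h1 * (h2 * z1) * z2 * z1⁻¹ * h1⁻¹ * z2⁻¹ * h2⁻¹ := by rw [hz1 h2]
    _ = h1 * h2 * z1 * (z2 * z1⁻¹) * h1⁻¹ * z2⁻¹ * h2⁻¹ := by group
    _ = h1 * h2 * z1 * (z1⁻¹ * z2) * h1⁻¹ * z2⁻¹ * h2⁻¹ := by rw [hz2 z1⁻¹]
    _ = h1 * h2 * (z2 * h1⁻¹) * z2⁻¹ * h2⁻¹ := by group
    _ = h1 * h2 * (h1⁻¹ * z2) * z2⁻¹ * h2⁻¹ := by rw [hz2 h1⁻¹]
    _ = h1 * h2 * h1⁻¹ * h2⁻¹ := by group

section main

variable {G : Type*} [Group G]

/-- Decomposition of the elements. -/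
lemma exists_decomp (P : Subgroup G) [P.Normal] (hP : Nat.card (G ⧸ P) = 5) (y : G) (hy : y ∉ P)
    (g : G) : ∃ p ∈ P, ∃ k : ℤ, g = p * y ^ k := by
  haveI : Fact (Nat.Prime 5) := ⟨Nat.prime_five⟩
  have hy' : ((y : G) : G ⧸ P) ≠ 1 := by
    rwa [Ne, QuotientGroup.eq_one_iff]
  have := mem_zpowers_of_prime_card hP (g' := ((g : G) : G ⧸ P)) hy'
  obtain ⟨k, hk⟩ := Subgroup.mem_zpowers_iff.mp this
  refine ⟨g * (y ^ k)⁻¹, ?_, k, by group⟩
  rw [← QuotientGroup.eq_one_iff, QuotientGroup.mk_mul, QuotientGroup.mk_inv, QuotientGroup.mk_zpow,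
    hk, mul_inv_cancel]

/-- The main structural theorem. -/
theorem exists_gens [Finite G] (hG : Nat.card G = 320) (hD : Nat.card (commutator G) = 64)
    (hZ : IsKleinFour (Subgroup.center (commutator G))) :
    ∃ a y : G, Rel a y ∧ Subgroup.closure ({a, y} : Set G) = ⊤ := by
  classical
  set P := commutator G with hPdef
  haveI : P.Normal := by rw [hPdef]; infer_instance
  have hK4 : Nat.card (Subgroup.center P) = 4 := hZ.card_four
  have hz2 : ∀ z : Subgroup.center P, z * z = 1 := by
    intro z
    have := Monoid.pow_exponent_eq_one z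
    rw [hZ.exponent_two, pow_two] at this
    exact this
  have hz2' : ∀ z : P, z ∈ Subgroup.center P → z * z = 1 := by
    intro z hz
    have := hz2 ⟨z, hz⟩
    exact congrArg Subtype.val this
  haveI : Fact (Nat.Prime 5) := ⟨Nat.prime_five⟩
  obtain ⟨y, hy⟩ := exists_prime_orderOf_dvd_card' (G := G) 5 (by rw [hG]; norm_num)
  have y5 : y ^ 5 = 1 := by rw [← hy, pow_orderOf_eq_one]
  have yP : y ∉ P := by
    intro h
    have h1 : orderOf (⟨y, h⟩ : P) = 5 := by rw [Subgroup.orderOf_mk, hy]
    have h2 := orderOf_dvd_natCard (⟨y, h⟩ : P)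
    rw [h1, hD] at h2
    omega
  have hGP : Nat.card (G ⧸ P) = 5 := by
    have := Subgroup.card_eq_card_quotient_mul_card_subgroup P
    rw [hG, hD] at this
    omega
  have hdec := exists_decomp P hGP y yP
  let τ : MulAut P := MulAut.conjNormal y
  have τc : ∀ p : P, (τ p : G) = y * p * y⁻¹ := fun p => MulAut.conjNormal_apply y p
  have τ5 : ∀ p : P, τ (τ (τ (τ (τ p)))) = p := by
    intro p
    apply Subtype.ext
    simp only [τc]
    have e : y * (y * (y * (y * (y * (p : G) * y⁻¹) * y⁻¹) * y⁻¹) * y⁻¹) * y⁻¹ =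
        y ^ 5 * (p : G) * (y ^ 5)⁻¹ := by
      simp only [pow_succ, pow_zero, one_mul]; group
    rw [e, y5]; simp
  have τcen : ∀ z ∈ Subgroup.center P, τ z ∈ Subgroup.center P := by
    intro z hz
    rw [Subgroup.mem_center_iff] at hz ⊢
    intro g
    obtain ⟨g', rfl⟩ := τ.surjective g
    rw [← map_mul, ← map_mul, hz]
  have τfixc : ∀ z ∈ Subgroup.center P, τ z = z := by
    have hm := ncard_fix_modEq (fun p : P => τ p) τ5 (Subgroup.center P : Set P) τcen
    have e1 : (Subgroup.center P : Set P).ncard = 4 := by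
      rw [← Nat.card_coe_set_eq]; exact hK4
    set F := {x ∈ (Subgroup.center P : Set P) | τ x = x} with hF
    have hsub : F ⊆ (Subgroup.center P : Set P) := fun x hx => hx.1
    have hle : F.ncard ≤ 4 := e1 ▸ Set.ncard_le_ncard hsub (Set.toFinite _)
    have h4 : F.ncard = 4 := by
      rw [e1] at hm
      have hm' : 4 % 5 = F.ncard % 5 := hm
      omega
    have hFe : F = (Subgroup.center P : Set P) :=
      Set.eq_of_subset_of_ncard_le hsub (by rw [e1, h4]) (Set.toFinite _)
    intro z hz
    have : z ∈ F := by rw [hFe]; exact hz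
    exact this.2
  -- the centralizer of `y` in `P`
  let Fx : Subgroup P := MonoidHom.eqLocus τ.toMonoidHom (MonoidHom.id P)
  have memFx : ∀ p : P, p ∈ Fx ↔ τ p = p := fun p => Iff.rfl
  have hFxm : Nat.card Fx % 5 = 4 := by
    have hm := ncard_fix_modEq (fun p : P => τ p) τ5 (Set.univ : Set P) (fun _ _ => trivial)
    have e1 : (Set.univ : Set P).ncard = 64 := by
      rw [Set.ncard_univ]; exact hD
    have e2 : {x ∈ (Set.univ : Set P) | τ x = x} = (Fx : Set P) := by
      ext x; simp [memFx]
    rw [e1, e2, ← Nat.card_coe_set_eq] at hm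
    have hm' : 64 % 5 = Nat.card Fx % 5 := hm
    omega
  have hFxd : Nat.card Fx ∣ 64 := hD ▸ Subgroup.card_subgroup_dvd_card Fx
  have hFxle : Nat.card Fx ≤ 64 := Nat.le_of_dvd (by norm_num) hFxd
  have hFxc : Nat.card Fx = 4 ∨ Nat.card Fx = 64 := by
    interval_cases hc : Nat.card Fx <;> first | omega | (exfalso; revert hFxd; decide)
  have hcenFx : Subgroup.center P ≤ Fx := fun z hz => τfixc z hz
  -- `y` does not centralize `P`
  have hFx4 : Nat.card Fx = 4 := by
    rcases hFxc with h | h
    · exact h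
    exfalso
    have hall : Fx = ⊤ := by
      apply Subgroup.eq_top_of_card_eq
      rw [h]; exact hD.symm
    have hy_comm : ∀ p : P, y * (p : G) = p * y := by
      intro p
      have h1 : τ p = p := (memFx p).mp (by rw [hall]; trivial)
      have h2 := congrArg Subtype.val h1
      rw [τc] at h2
      calc y * (p : G) = (y * p * y⁻¹) * y := by group
        _ = p * y := by rw [h2]
    have hy_central : ∀ g : G, y * g = g * y := by
      intro g
      obtain ⟨p, hp, k, rfl⟩ := hdec g
      have h1 := hy_comm ⟨p, hp⟩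
      calc y * (p * y ^ k) = (y * p) * y ^ k := by group
        _ = p * y * y ^ k := by rw [show y * p = p * y from h1]
        _ = p * y ^ k * y := by
            rw [mul_assoc, mul_assoc, (Commute.refl y).zpow_right k |>.eq]
    have hyk_central : ∀ (k : ℤ) (g : G), y ^ k * g = g * y ^ k := by
      intro k g
      have : Commute y g := hy_central g
      exact (this.zpow_left k).eq
    let D : Subgroup G := (commutator P).map P.subtype
    have hle : commutator G ≤ D := by
      rw [commutator_def, Subgroup.commutator_le]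
      intro g1 _ g2 _
      obtain ⟨p, hp, k, rfl⟩ := hdec g1
      obtain ⟨q, hq, l, rfl⟩ := hdec g2
      rw [commutatorElement_def, comm_central_mul p q _ _ (hyk_central k) (hyk_central l)]
      refine ⟨⁅(⟨p, hp⟩ : P), (⟨q, hq⟩ : P)⁆, ?_, ?_⟩
      · exact Subgroup.commutator_mem_commutator (Subgroup.mem_top _) (Subgroup.mem_top _)
      · simp [commutatorElement_def]
    have hp2 : IsPGroup 2 P := IsPGroup.of_card (n := 6) (by rw [hD]; norm_num)
    haveI : Nontrivial P := Finite.one_lt_card_iff_nontrivial.mp (by rw [hD]; norm_num)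
    haveI : Group.IsNilpotent P := hp2.isNilpotent
    have hlt := Group.IsSolvable.commutator_lt_top_of_nontrivial P
    apply hlt.ne
    rw [eq_top_iff]
    rintro ⟨p, hp⟩ _
    obtain ⟨u, hu, hup⟩ := hle hp
    have : u = ⟨p, hp⟩ := Subtype.ext hup
    rwa [← this]
  have hcenEq : Subgroup.center P = Fx := by
    apply Subgroup.eq_of_le_of_card_ge hcenFx
    rw [hK4, hFx4]
  have τfix : ∀ p : P, τ p = p → p ∈ Subgroup.center P := by
    intro p hp
    rw [hcenEq]; exact (memFx p).mpr hp
  -- the quotient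
  let K := P ⧸ Subgroup.center P
  let σ : K →* K := QuotientGroup.map (Subgroup.center P) (Subgroup.center P) τ.toMonoidHom
    (fun z hz => τcen z hz)
  have σmk : ∀ p : P, σ (p : K) = ((τ p : P) : K) := fun p => rfl
  have σ5 : ∀ x : K, σ (σ (σ (σ (σ x)))) = x := by
    intro x
    induction x using QuotientGroup.induction_on with
    | H p => simp only [σmk, τ5]
  have σfix : ∀ x : K, σ x = x → x = 1 := by
    intro x
    induction x using QuotientGroup.induction_on with
    | H p =>
      intro hp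
      rw [σmk, QuotientGroup.eq] at hp
      -- `τ p = p * z'`, where `z' = (τ p)⁻¹ * p` inverse
      set z : P := (τ p)⁻¹ * p with hzdef
      have hzc : z ∈ Subgroup.center P := hp
      have hτz : τ z = z := τfixc z hzc
      have hzz : z * z = 1 := hz2' z hzc
      have hzcomm : ∀ g : P, z * g = g * z := fun g => (Subgroup.mem_center_iff.mp hzc g).symm
      have h1 : τ p * z = p := by rw [hzdef]; group
      have h2 : τ (τ p) * z = τ p := by
        have := congrArg τ h1
        rwa [map_mul, hτz] at this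
      have h3 : τ (τ (τ p)) * z = τ (τ p) := by
        have := congrArg τ h2
        rwa [map_mul, hτz] at this
      have h4 : τ (τ (τ (τ p))) * z = τ (τ (τ p)) := by
        have := congrArg τ h3
        rwa [map_mul, hτz] at this
      have h5 : τ (τ (τ (τ (τ p)))) * z = τ (τ (τ (τ p))) := by
        have := congrArg τ h4
        rwa [map_mul, hτz] at this
      rw [τ5] at h5
      -- so `p = τ p * z`, and `τ⁴ p = p * z`, ..., `p = p * z`
      have k4 : τ (τ (τ (τ p))) = p * z := h5.symm
      have k3 : τ (τ (τ p)) = p * z * z := by rw [← h4, k4]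
      have k2 : τ (τ p) = p * z * z * z := by rw [← h3, k3]
      have k1 : τ p = p * z * z * z * z := by rw [← h2, k2]
      have k0 : p = p * z * z * z * z * z := by
        conv_lhs => rw [← h1, k1]
      have hz1 : z = 1 := by
        have e : p * z * z * z * z * z = p * (z * z) * (z * z) * z := by group
        rw [e, hzz] at k0
        simpa using k0
      rw [hz1, mul_one] at h1
      rw [QuotientGroup.eq_one_iff]
      exact τfix p h1
  have hKc : Nat.card K = 16 := by
    have := Subgroup.card_eq_card_quotient_mul_card_subgroup (Subgroup.center P)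
    rw [hD, hK4] at this
    change 64 = Nat.card K * 4 at this
    omega
  obtain ⟨Kcomm, Ksq⟩ := fpf16 hKc σ σ5 σfix
  -- the centre of `P` is central in `G`
  have Zc : ∀ z ∈ Subgroup.center P, ∀ g : G, (z : G) * g = g * z := by
    intro z hz g
    obtain ⟨p, hp, k, rfl⟩ := hdec g
    have h1 : (z : G) * p = p * z := by
      have := (Subgroup.mem_center_iff.mp hz ⟨p, hp⟩).symm
      exact congrArg Subtype.val this
    have h2 : Commute (z : G) y := by
      have := congrArg Subtype.val (τfixc z hz)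
      rw [τc] at this
      have h' : y * (z : G) = z * y := by
        calc y * (z : G) = (y * z * y⁻¹) * y := by group
          _ = z * y := by rw [this]
      exact h'.symm
    calc (z : G) * (p * y ^ k) = (z * p) * y ^ k := by group
      _ = p * (z * y ^ k) := by rw [h1]; group
      _ = p * (y ^ k * z) := by rw [(h2.zpow_right k).eq]
      _ = p * y ^ k * z := by group
  have sqZ : ∀ u : P, u * u ∈ Subgroup.center P := by
    intro u
    have := Ksq (u : K)
    rw [← QuotientGroup.mk_mul, QuotientGroup.eq_one_iff] at this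
    exact this
  have cmZ : ∀ u v : P, cm u v ∈ Subgroup.center P := by
    intro u v
    have := Kcomm (u : K) (v : K)
    rw [← QuotientGroup.mk_mul, ← QuotientGroup.mk_mul, QuotientGroup.eq_iff_div_mem] at this
    have e2 : cm u v = (u * v) / (v * u) := by
      simp only [cm, div_eq_mul_inv]; group
    rw [e2]
    exact this
  -- the choice of `a`
  obtain ⟨g0, hg0⟩ : ∃ g : P, g ∉ Subgroup.center P := by
    by_contra hcon
    push Not at hcon
    have : Subgroup.center P = ⊤ := by
      rw [eq_top_iff]; intro g _; exact hcon g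
    have h4 : Nat.card (Subgroup.center P) = 64 := by
      rw [this, Subgroup.card_top]; exact hD
    omega
  let a : P := g0 * τ g0⁻¹
  have amk : (a : K) ≠ 1 := by
    intro h
    apply hg0
    have h1 : (g0 : K) * σ (g0 : K)⁻¹ = 1 := by
      rw [← h]
      rfl
    have h2 : σ (g0 : K) = (g0 : K) := by
      rw [map_inv] at h1
      exact (mul_inv_eq_one.mp h1).symm
    have h3 := σfix _ h2
    rwa [QuotientGroup.eq_one_iff] at h3
  have ay : ((a : G) * y) = g0 * y * (g0 : G)⁻¹ := by
    have : (a : G) = g0 * (y * (g0 : G)⁻¹ * y⁻¹) := by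
      change ((g0 * τ g0⁻¹ : P) : G) = _
      rw [Subgroup.coe_mul, τc]
      simp
    rw [this]; group
  have hcmco : ∀ u v : P, cm (u : G) (v : G) = ((cm u v : P) : G) := by
    intro u v
    simp [cm]
  have hτa : ∀ u : P, y * (u : G) * y⁻¹ = ((τ u : P) : G) := fun u => (τc u).symm
  have cent : ∀ z : P, z ∈ Subgroup.center P → (∀ g : G, (z : G) * g = g * z) ∧ (z : G) * z = 1 := by
    intro z hz
    refine ⟨Zc z hz, ?_⟩
    exact congrArg Subtype.val (hz2' z hz)
  have hAP := cent _ (sqZ a)
  have hBP := cent _ (cmZ a (τ a))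
  have hCP := cent _ (cmZ a (τ (τ a)))
  have eB : bB (a : G) y = ((cm a (τ a) : P) : G) := by
    rw [bB, hτa, hcmco]
  have eC : cC (a : G) y = ((cm a (τ (τ a)) : P) : G) := by
    rw [cC, hτa, hτa, hcmco]
  refine ⟨a, y, ?_, ?_⟩
  · refine
      { y5 := y5
        ay5 := ?_
        Ay := hAP.1 y
        AA := hAP.2
        Ba := ?_
        By := ?_
        BB := ?_
        Ca := ?_
        Cy := ?_
        CC := ?_ }
    · rw [ay, conj_pow, y5]; simp
    · rw [eB]; exact hBP.1 _
    · rw [eB]; exact hBP.1 _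
    · rw [eB]; exact hBP.2
    · rw [eC]; exact hCP.1 _
    · rw [eC]; exact hCP.1 _
    · rw [eC]; exact hCP.2
  · -- generation
    set H := Subgroup.closure ({(a : G), y} : Set G) with hH
    have aH : (a : G) ∈ H := Subgroup.subset_closure (by simp)
    have yH : y ∈ H := Subgroup.subset_closure (by simp)
    let R : Subgroup K := (H.subgroupOf P).map (QuotientGroup.mk' (Subgroup.center P))
    have hRtop : R = ⊤ := by
      apply fpf_sub hKc σ σ5 σfix (map_one σ)
      · rintro x ⟨h, hh, rfl⟩
        refine ⟨τ h, ?_, rfl⟩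
        change τ h ∈ H.subgroupOf P
        rw [Subgroup.mem_subgroupOf, τc]
        exact H.mul_mem (H.mul_mem yH (Subgroup.mem_subgroupOf.mp hh)) (H.inv_mem yH)
      · intro hbot
        apply amk
        have : (a : K) ∈ R := ⟨a, Subgroup.mem_subgroupOf.mpr aH, rfl⟩
        rw [hbot, Subgroup.mem_bot] at this
        exact this
    have hPH : ∀ p : P, ∃ h : P, (h : G) ∈ H ∧ ∃ z ∈ Subgroup.center P, p = h * z := by
      intro p
      have : (p : K) ∈ R := by rw [hRtop]; trivial
      obtain ⟨h, hh, he⟩ := this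
      refine ⟨h, Subgroup.mem_subgroupOf.mp hh, h⁻¹ * p, ?_, by group⟩
      have he' : (h : K) = (p : K) := he
      exact QuotientGroup.eq.mp he'
    have hGH : ∀ g : G, ∃ h ∈ H, ∃ z ∈ Subgroup.center P, g = h * (z : G) := by
      intro g
      obtain ⟨p, hp, k, rfl⟩ := hdec g
      obtain ⟨h, hh, z, hz, e⟩ := hPH ⟨p, hp⟩
      refine ⟨h * y ^ k, H.mul_mem hh (H.zpow_mem yH k), z, hz, ?_⟩
      have e' : p = h * (z : G) := congrArg Subtype.val e
      rw [e', mul_assoc, mul_assoc, Zc z hz (y ^ k)]
    have hcomm : commutator G ≤ H := by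
      rw [commutator_def, Subgroup.commutator_le]
      intro g1 _ g2 _
      obtain ⟨h1, hh1, z1, hz1, rfl⟩ := hGH g1
      obtain ⟨h2, hh2, z2, hz2, rfl⟩ := hGH g2
      rw [commutatorElement_def, comm_central_mul h1 h2 _ _ (Zc z1 hz1) (Zc z2 hz2)]
      exact H.mul_mem (H.mul_mem (H.mul_mem hh1 hh2) (H.inv_mem hh1)) (H.inv_mem hh2)
    rw [eq_top_iff]
    intro g _
    obtain ⟨p, hp, k, rfl⟩ := hdec g
    exact H.mul_mem (hcomm hp) (H.zpow_mem yH k)

end main

end Cfsg.Agent.Lib.H1903
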